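import Groth.Agent.S3339

/-!
# Composites of contractions in nodal families
-/

set_option autoImplicit false
universe u

open CategoryTheory CategoryTheory.Limits AlgebraicGeometry

namespace Groth.Agent.Models.H62.ContrSeq

/-- A finite composite of contractions is proper. -/
theorem isProper {Y X : Scheme.{u}} (c : Y ⟶ X) (hc : _root_.Models.IsContractionSeq c) : IsProper c := by
  induction hc with
  | iso e => infer_instance
  | step ι b r hι hE hb hr ih =>
    have := hb.2.1
    infer_instance

/-- If `c` is a finite composite of contractions and `c ≫ p` is a nodal family over a discrete valuation ring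
then so is `p`. -/
theorem isNodalFamily (R : Type u) [CommRing R] [IsDomain R] [IsDiscreteValuationRing R]
    {Y X : Scheme.{u}} (c : Y ⟶ X) (hc : _root_.Models.IsContractionSeq c) (p : X ⟶ Spec (CommRingCat.of R))
    [LocallyOfFiniteType p] (h : Curv2.IsNodalFamily (c ≫ p)) : Curv2.IsNodalFamily p := by
  induction hc with
  | iso e =>
    have h1 : p = e.inv ≫ e.hom ≫ p := by rw [Iso.inv_hom_id_assoc]
    rw [h1]
    exact CurvesB.NodalEtale.isNodalFamily_precomp_etale _ _ h
  | step ι b r hι hE hb hr ih =>
    have := isProper r hr
    refine ih p ?_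
    rw [Category.assoc] at h
    exact S3339.result R _ _ _ (b ≫ r ≫ p) (r ≫ p) h ι hE b hb rfl

end Groth.Agent.Models.H62.ContrSeq
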