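import Groth.Agent.CalgA.RegBasic
import Mathlib.RingTheory.DiscreteValuationRing.TFAE

/-!
# Local algebra for the contraction of an exceptional curve in a nodal family
-/

set_option autoImplicit false
universe u v

open IsLocalRing

namespace Groth.Agent.Models.H62.ContrAlg

/-- If `𝔪_A C = (t)` with `t` a nonzerodivisor in the maximal ideal of `C`, `π ∈ 𝔪_A²` and
`C/π C` is reduced then `π C = 0`. -/
theorem map_eq_zero_of_mem_sq {A : Type u} {C : Type v} [CommRing A] [IsLocalRing A] [CommRing C] [IsLocalRing C]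
    (φ : A →+* C) (t : C) (ht : t ∈ nonZeroDivisors C) (htm : t ∈ maximalIdeal C)
    (hmap : (maximalIdeal A).map φ = Ideal.span {t}) (π : A) (hπ : π ∈ maximalIdeal A ^ 2)
    (hred : IsReduced (C ⧸ Ideal.span {φ π})) : φ π = 0 := by
  have h1 : φ π ∈ Ideal.span {t ^ 2} := by
    rw [← Ideal.span_singleton_pow, ← hmap, ← Ideal.map_pow]
    exact Ideal.mem_map_of_mem _ hπ
  obtain ⟨u, hu⟩ := Ideal.mem_span_singleton.1 h1
  have h2 : IsNilpotent (Ideal.Quotient.mk (Ideal.span {φ π}) (t * u)) := by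
    refine ⟨2, ?_⟩
    rw [← map_pow, Ideal.Quotient.eq_zero_iff_mem, Ideal.mem_span_singleton]
    refine ⟨u, ?_⟩
    rw [hu]; ring
  have h3 := h2.eq_zero
  rw [Ideal.Quotient.eq_zero_iff_mem, Ideal.mem_span_singleton] at h3
  obtain ⟨v, hv⟩ := h3
  have h4 : t * (u * (1 - t * v)) = 0 := by
    have : t * u = t ^ 2 * u * v := by rw [← hu]; exact hv
    linear_combination this
  have h5 : u * (1 - t * v) = 0 := by
    rw [mul_comm] at h4
    exact (mul_right_mem_nonZeroDivisors_eq_zero_iff ht).1 h4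
  have h6 : IsUnit (1 - t * v) := by
    have : t * v ∈ maximalIdeal C := Ideal.mul_mem_right _ _ htm
    by_contra hcon
    have h7 : (1 - t * v) ∈ maximalIdeal C := hcon
    have h8 := (maximalIdeal C).add_mem h7 this
    rw [sub_add_cancel] at h8
    exact (Ideal.ne_top_iff_one _).1 (maximalIdeal.isMaximal C).ne_top h8
  have h7 : u = 0 := (IsUnit.mul_left_eq_zero h6).1 h5
  rw [hu, h7, mul_zero]

/-- `C/(tu)` is not a domain if `t`, `u` lie in the maximal ideal of the local ring `C` and
`tu ≠ 0`. -/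
theorem not_isDomain_quotient {C : Type v} [CommRing C] [IsLocalRing C] (t u : C)
    (htm : t ∈ maximalIdeal C) (hum : u ∈ maximalIdeal C)
    (hne : t * u ≠ 0) : ¬ IsDomain (C ⧸ Ideal.span {t * u}) := by
  intro hdom
  have hunit : ∀ a ∈ maximalIdeal C, ∀ v, IsUnit (1 - a * v) := by
    intro a ha v
    have : a * v ∈ maximalIdeal C := Ideal.mul_mem_right _ _ ha
    by_contra hcon
    have h7 : (1 - a * v) ∈ maximalIdeal C := hcon
    have h8 := (maximalIdeal C).add_mem h7 this
    rw [sub_add_cancel] at h8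
    exact (Ideal.ne_top_iff_one _).1 (maximalIdeal.isMaximal C).ne_top h8
  have h1 : Ideal.Quotient.mk (Ideal.span {t * u}) t * Ideal.Quotient.mk (Ideal.span {t * u}) u = 0 := by
    rw [← map_mul, Ideal.Quotient.eq_zero_iff_mem]
    exact Ideal.mem_span_singleton_self _
  rcases mul_eq_zero.1 h1 with h2 | h2
  · rw [Ideal.Quotient.eq_zero_iff_mem, Ideal.mem_span_singleton] at h2
    obtain ⟨v, hv⟩ := h2
    have h3 : t * (1 - u * v) = 0 := by linear_combination hv
    have h4 : t = 0 := (IsUnit.mul_left_eq_zero (hunit u hum v)).1 h3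
    exact hne (by rw [h4, zero_mul])
  · rw [Ideal.Quotient.eq_zero_iff_mem, Ideal.mem_span_singleton] at h2
    obtain ⟨v, hv⟩ := h2
    have h3 : u * (1 - t * v) = 0 := by linear_combination hv
    have h4 : u = 0 := (IsUnit.mul_left_eq_zero (hunit t htm v)).1 h3
    exact hne (by rw [h4, mul_zero])

/-- The quotient of a two-dimensional regular local ring by an element of `𝔪 ∖ 𝔪²` is regular of dimension one. -/
theorem quotient_regular {A : Type u} [CommRing A] [IsRegularLocalRing A] (hA : ringKrullDim A = 2) (x : A)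
    (hx : x ∈ maximalIdeal A) (hx2 : x ∉ maximalIdeal A ^ 2) :
    IsRegularLocalRing (A ⧸ Ideal.span {x}) ∧ ringKrullDim (A ⧸ Ideal.span {x}) = 1 := by
  obtain ⟨h1, h2⟩ := CalgA.RegBasic.quotient_of_notMem_sq x hx hx2
  refine ⟨h1, ?_⟩
  obtain ⟨d, hd⟩ := CalgA.RegBasic.ringKrullDim_eq_natCast (A ⧸ Ideal.span {x})
  rw [hd, hA] at h2
  have : d + 1 = 2 := by exact_mod_cast h2
  have : d = 1 := by omega
  rw [hd, this]
  rfl

/-- ... and that element generates a prime ideal different from the maximal ideal. -/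
theorem isPrime_span {A : Type u} [CommRing A] [IsRegularLocalRing A] (hA : ringKrullDim A = 2) (x : A)
    (hx : x ∈ maximalIdeal A) (hx2 : x ∉ maximalIdeal A ^ 2) :
    (Ideal.span {x}).IsPrime ∧ Ideal.span {x} ≠ maximalIdeal A := by
  obtain ⟨h1, h2⟩ := quotient_regular hA x hx hx2
  have h3 := CalgA.RegBasic.isDomain (A ⧸ Ideal.span {x})
  refine ⟨(Ideal.Quotient.isDomain_iff_prime _).1 h3, fun h4 => ?_⟩
  rw [h4] at h2
  have : IsField (A ⧸ maximalIdeal A) := (Ideal.Quotient.maximal_ideal_iff_isField_quotient _).1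
    (maximalIdeal.isMaximal A)
  let _ := this.toField
  rw [ringKrullDim_eq_zero_of_field] at h2
  exact zero_ne_one h2

end Groth.Agent.Models.H62.ContrAlg
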