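import Groth.Agent.Models.H62.ContrSmooth
import Groth.Agent.CurvesB.NodalExist460
import Groth.Agent.S1593
import Mathlib.RingTheory.Flat.TorsionFree
import Mathlib.RingTheory.DedekindDomain.Dvr

/-!
# Contraction of an exceptional curve in a nodal family
-/

set_option autoImplicit false
universe u

open CategoryTheory CategoryTheory.Limits AlgebraicGeometry IsLocalRing
open Groth.Agent.Divis.CartierBasic Groth.Agent.Dix.PointIdeal Groth.Agent.CycB.FiberStalk
open Groth.Agent.CurvesB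

namespace Groth.Agent.Models.H62.ContrMain

variable {X X' S : Scheme.{u}}

/-- Off the centre, the contraction of a nodal family is a nodal family. -/
theorem isNodalFamily_off (b : X ⟶ X') (p' : X' ⟶ S) (hp : Curv2.IsNodalFamily (b ≫ p')) (y : X')
    (hy : IsClosed ({y} : Set X')) (hb : BlowUp.IsBlowUp b (pt y hy)) :
    Curv2.IsNodalFamily ((Ega2.BlowBasic.offSupport (pt y hy)).ι ≫ p') := by
  obtain ⟨r, hr, h⟩ := Ega2.BlowBasic.exists_isIso_offSupport hb
  have h1 : (Ega2.BlowBasic.offSupport (pt y hy)).ι ≫ p' =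
      (inv r ≫ (Ega2.BlowBasic.offSupport ((pt y hy).comap b)).ι) ≫ (b ≫ p') := by
    have h2 : (Ega2.BlowBasic.offSupport (pt y hy)).ι =
        inv r ≫ (Ega2.BlowBasic.offSupport ((pt y hy).comap b)).ι ≫ b := by
      rw [← h, IsIso.inv_hom_id_assoc]
    rw [h2]
    simp only [Category.assoc]
  rw [h1]
  exact NodalEtale.isNodalFamily_precomp_etale _ _ hp

/-- The contraction is smooth at the image of the exceptional curve. -/
theorem mem_smoothLocus_and (b : X ⟶ X') [IsProper b] (p' : X' ⟶ S) [LocallyOfFinitePresentation p']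
    (hp : Curv2.IsNodalFamily (b ≫ p')) (y : X')
    (hy : IsClosed ({y} : Set X')) (hb : BlowUp.IsBlowUp b (pt y hy))
    (hreg : IsRegularLocalRing (X'.presheaf.stalk y)) (hdim : ringKrullDim (X'.presheaf.stalk y) = 2)
    [IsDomain (S.presheaf.stalk (p' y))] [IsDiscreteValuationRing (S.presheaf.stalk (p' y))]
    (x0 : X) (hx0 : b x0 = y) : y ∈ p'.smoothLocus ∧ ∃ ξ : X, b ξ ⤳ y ∧ b ξ ≠ y := by
  obtain ⟨hflat, hlfp, -⟩ := id hp
  obtain ⟨ϖ, hϖirr⟩ := IsDiscreteValuationRing.exists_irreducible (S.presheaf.stalk (p' y))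
  have hϖ : maximalIdeal (S.presheaf.stalk (p' y)) = Ideal.span {ϖ} := hϖirr.maximalIdeal_eq
  have hϖ0 : ϖ ∈ nonZeroDivisors (S.presheaf.stalk (p' y)) := mem_nonZeroDivisors_of_ne_zero hϖirr.ne_zero
  have hsq : (p'.stalkMap y).hom ϖ ∉ maximalIdeal (X'.presheaf.stalk y) ^ 2 := by
    subst hx0
    exact ContrPoint.notMem_sq b p' x0 hy hb ϖ hϖ hϖ0 (ContrSmooth.isReduced_quotient (b ≫ p') hp x0)
  obtain ⟨ξ, x, hξx, hx, hξ, hnd⟩ := ContrSmooth.exists_singular b p' y hy hb hreg hdim ϖ hϖ hϖ0 hsq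
  subst hx
  refine ⟨?_, ξ, hξx.map b.continuous, hξ⟩
  have hN := ContrSmooth.isN_of_not_isDomain (b ≫ p') hp x hnd
  have hsep := ContrSmooth.isSeparable_of_isN b p' (p' (b x)) ((b ≫ p').asFiber x) hN
  set z : p'.fiber (p' (b x)) := NodalEtale.fiberMap p' b (p' (b x)) ((b ≫ p').asFiber x) with hz
  have hzι : p'.fiberι (p' (b x)) z = b x := by
    rw [hz, ← Scheme.Hom.comp_apply, NodalEtale.fiberMap_ι, Scheme.Hom.comp_apply]
    congr 1
    exact (b ≫ p').fiberι_asFiber x
  have hz2 : z = p'.asFiber (b x) := (p'.fiberι (p' (b x))).isEmbedding.injective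
    (by rw [hzι, Scheme.Hom.fiberι_asFiber])
  have hπm : (p'.stalkMap (b x)).hom ϖ ∈ maximalIdeal (X'.presheaf.stalk (b x)) := by
    have h1 := fibIdeal_le p' (b x)
    rw [ContrPoint.fibIdeal_eq p' (b x) ϖ hϖ] at h1
    exact h1 (Ideal.mem_span_singleton_self _)
  have hregq : IsRegularLocalRing (X'.presheaf.stalk (b x) ⧸ fibIdeal p' (b x)) := by
    rw [ContrPoint.fibIdeal_eq p' (b x) ϖ hϖ]
    exact (ContrAlg.quotient_regular hdim _ hπm hsq).1
  have hregz : IsRegularLocalRing ((p'.fiber (p' (b x))).presheaf.stalk z) := by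
    have key : ∀ (x' : X') (_ : x' = b x), IsRegularLocalRing (X'.presheaf.stalk x' ⧸ fibIdeal p' x') := by
      rintro _ rfl; exact hregq
    have := key _ hzι
    exact IsRegularLocalRing.of_ringEquiv (stalkEquiv p' (p' (b x)) z)
  have hlfp' : LocallyOfFinitePresentation (p'.fiberToSpecResidueField (p' (b x))) :=
    MorphismProperty.pullback_snd _ _ inferInstance
  have hsm : z ∈ (p'.fiberToSpecResidueField (p' (b x))).smoothLocus := by
    let i1 : (p'.fiber (p' (b x))).Over (Spec (CommRingCat.of (S.residueField (p' (b x))))) :=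
      ⟨p'.fiberToSpecResidueField (p' (b x))⟩
    have i2 : LocallyOfFinitePresentation (p'.fiber (p' (b x)) ↘ Spec (CommRingCat.of (S.residueField (p' (b x))))) :=
      hlfp'
    refine VarietyA.SmoothReg.mem_smoothLocus_of_isRegularLocalRing (S.residueField (p' (b x)))
      (p'.fiber (p' (b x))) z ?_ hregz
    let _ := Curv2.resAlgebra (S.residueField (p' (b x))) (p'.fiber (p' (b x))) z
    have h1 : Algebra.IsSeparable (S.residueField (p' (b x))) ((p'.fiber (p' (b x))).residueField z) := hsep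
    have h2 : Algebra.FormallyEtale (S.residueField (p' (b x))) ((p'.fiber (p' (b x))).residueField z) :=
      Algebra.FormallyEtale.of_isSeparable _ _
    infer_instance
  refine (S2156.result p' (b x)).2 ⟨?_, hz2 ▸ hsm⟩
  -- flatness
  have hdom : IsDomain (X'.presheaf.stalk (b x)) := CalgA.RegBasic.isDomain _
  let _ := (p'.stalkMap (b x)).hom.toAlgebra
  have hinj : Function.Injective (algebraMap (S.presheaf.stalk (p' (b x))) (X'.presheaf.stalk (b x))) := by
    rw [RingHom.injective_iff_ker_eq_bot]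
    by_contra hcon
    have h1 : (RingHom.ker (algebraMap (S.presheaf.stalk (p' (b x))) (X'.presheaf.stalk (b x)))).IsPrime :=
      RingHom.ker_isPrime _
    have h2 := h1.isMaximal hcon
    have h3 : RingHom.ker (algebraMap (S.presheaf.stalk (p' (b x))) (X'.presheaf.stalk (b x))) =
        maximalIdeal _ := eq_maximalIdeal h2
    have h4 : ϖ ∈ RingHom.ker (algebraMap (S.presheaf.stalk (p' (b x))) (X'.presheaf.stalk (b x))) := by
      rw [h3, hϖ]; exact Ideal.mem_span_singleton_self _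
    apply hsq
    have h5 : (p'.stalkMap (b x)).hom ϖ = 0 := h4
    rw [h5]
    exact Ideal.zero_mem _
  have hfs : FaithfulSMul (S.presheaf.stalk (p' (b x))) (X'.presheaf.stalk (b x)) :=
    (faithfulSMul_iff_algebraMap_injective _ _).2 hinj
  have htf : Module.IsTorsionFree (S.presheaf.stalk (p' (b x))) (X'.presheaf.stalk (b x)) := inferInstance
  have : Module.Flat (S.presheaf.stalk (p' (b x))) (X'.presheaf.stalk (b x)) := inferInstance
  exact this

/-- The contraction is smooth of relative dimension one at the image of the exceptional curve. -/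
theorem sm (b : X ⟶ X') [IsProper b] (p' : X' ⟶ S) [LocallyOfFinitePresentation p']
    (hp : Curv2.IsNodalFamily (b ≫ p')) (y : X')
    (hy : IsClosed ({y} : Set X')) (hb : BlowUp.IsBlowUp b (pt y hy))
    (hreg : IsRegularLocalRing (X'.presheaf.stalk y)) (hdim : ringKrullDim (X'.presheaf.stalk y) = 2)
    [IsDomain (S.presheaf.stalk (p' y))] [IsDiscreteValuationRing (S.presheaf.stalk (p' y))]
    (x0 : X) (hx0 : b x0 = y) : NodalPoint.Sm p' y := by
  obtain ⟨h1, ξ, hξ, hξy⟩ := mem_smoothLocus_and b p' hp y hy hb hreg hdim x0 hx0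
  refine NodalPoint.sm_of_mem_smoothLocus p' y h1 fun n V hV hn => ?_
  let U := Ega2.BlowBasic.offSupport (pt y hy)
  have hU : Curv2.IsNodalFamily (U.ι ≫ p') := isNodalFamily_off b p' hp y hy hb
  have hξU : b ξ ∈ U := by
    rw [Ega2.BlowBasic.mem_offSupport, mem_support_pt]; exact hξy
  have hξV : b ξ ∈ V := hξ.mem_open V.2 hV
  let W : X'.Opens := V ⊓ U
  have hW1 : SmoothOfRelativeDimension n (W.ι ≫ p') := by
    have e : W.ι ≫ p' = X'.homOfLE (inf_le_left : W ≤ V) ≫ V.ι ≫ p' := by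
      rw [← Category.assoc, Scheme.homOfLE_ι]
    rw [e]
    have h5 : SmoothOfRelativeDimension (0 + n) (X'.homOfLE (inf_le_left : W ≤ V) ≫ V.ι ≫ p') :=
      inferInstance
    rwa [Nat.zero_add] at h5
  let g : W.toScheme ⟶ U.toScheme := X'.homOfLE inf_le_right
  have hg : g ≫ U.ι ≫ p' = W.ι ≫ p' := by
    rw [← Category.assoc, Scheme.homOfLE_ι]
  have hlft : LocallyOfFiniteType (U.ι ≫ p') := inferInstance
  exact Models.SmoothCase.relDim_eq_one (U.ι ≫ p') g n (hg ▸ hW1) _ (hU.2.2 _).1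
    ((g ≫ U.ι ≫ p').asFiber ⟨b ξ, hξV, hξU⟩)

/-- The image of the exceptional curve does not lie over a point without proper generizations. -/
theorem exists_generization (b : X ⟶ X') [IsProper b] (p' : X' ⟶ S)
    (hp : Curv2.IsNodalFamily (b ≫ p')) (y : X')
    (hy : IsClosed ({y} : Set X')) (hb : BlowUp.IsBlowUp b (pt y hy))
    (hdim : ringKrullDim (X'.presheaf.stalk y) = 2) : ∃ s : S, s ⤳ p' y ∧ s ≠ p' y := by
  by_contra hcon
  push Not at hcon
  have h1 : ((2 : ℕ) : WithBot ℕ∞) ≤ Order.krullDim (PrimeSpectrum (X'.presheaf.stalk y)) := hdim.ge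
  obtain ⟨l, hl⟩ := Order.le_krullDim_iff.1 h1
  have hl0 : l ⟨0, by omega⟩ < l ⟨1, by omega⟩ := l.strictMono (by simp [Fin.lt_def])
  have hl1 : l ⟨1, by omega⟩ < l ⟨2, by omega⟩ := l.strictMono (by simp [Fin.lt_def])
  set q0 : PrimeSpectrum (X'.presheaf.stalk y) := l ⟨0, by omega⟩ with hq0
  set q1 : PrimeSpectrum (X'.presheaf.stalk y) := l ⟨1, by omega⟩ with hq1
  have hq1m : q1 ≠ closedPoint (X'.presheaf.stalk y) := by
    intro h
    have h2 : l ⟨2, by omega⟩ ≤ closedPoint (X'.presheaf.stalk y) :=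
      le_maximalIdeal (l ⟨2, by omega⟩).2.ne_top
    rw [← h] at h2
    exact absurd (hl1.trans_le h2) (lt_irrefl _)
  let j := X'.fromSpecStalk y
  have hinj : Function.Injective j := j.isEmbedding.injective
  have h01 : j q0 ⤳ j q1 :=
    ((PrimeSpectrum.le_iff_specializes q0 q1).1 hl0.le).map j.continuous
  have h1y : j q1 ⤳ y := by
    have := Set.mem_range_self (f := X'.fromSpecStalk y) q1
    rwa [Scheme.range_fromSpecStalk] at this
  have hne01 : j q1 ≠ j q0 := fun h => hl0.ne (hinj h).symm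
  have hne1y : j q1 ≠ y := by
    intro h
    apply hq1m
    apply hinj
    rw [h]
    exact X'.fromSpecStalk_closedPoint.symm
  have hne0y : j q0 ≠ y := by
    intro h
    rw [h] at h01
    exact hne01 ((h1y.antisymm h01).eq.trans h.symm)
  obtain ⟨x0, hx0⟩ := ContrSmooth.exists_lift b y hy hb (j q0) hne0y
  obtain ⟨x1, hx01, hx1⟩ := ContrSmooth.exists_specializes b x0 (j q1) (by rw [hx0]; exact h01)
  obtain ⟨x2, hx12, hx2⟩ := ContrSmooth.exists_specializes b x1 y (by rw [hx1]; exact h1y)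
  have hs2 : (b ≫ p') x2 = p' y := by rw [Scheme.Hom.comp_apply, hx2]
  have hs1 : (b ≫ p') x1 = p' y := by
    apply hcon
    rw [← hs2]
    exact hx12.map (b ≫ p').continuous
  have hs0 : (b ≫ p') x0 = p' y := by
    apply hcon
    rw [← hs2]
    exact (hx01.trans hx12).map (b ≫ p').continuous
  have hex : ∀ x : X, (b ≫ p') x = p' y → ∃ z : (b ≫ p').fiber (p' y), (b ≫ p').fiberι (p' y) z = x := by
    intro x hx
    have : x ∈ Set.range ((b ≫ p').fiberι (p' y)) := by
      rw [(b ≫ p').range_fiberι]; exact hx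
    exact this
  obtain ⟨z0, hz0⟩ := hex x0 hs0
  obtain ⟨z1, hz1⟩ := hex x1 hs1
  obtain ⟨z2, hz2⟩ := hex x2 hs2
  have hind := ((b ≫ p').fiberι (p' y)).isEmbedding.isInducing
  have hz01 : z0 ⤳ z1 := by
    rw [← hind.specializes_iff, hz0, hz1]; exact hx01
  have hz12 : z1 ⤳ z2 := by
    rw [← hind.specializes_iff, hz1, hz2]; exact hx12
  have hne : Nonempty ((b ≫ p').fiber (p' y)) := ⟨z0⟩
  rcases (DimOneTop.topologicalKrullDim_eq_one_iff.1
    (FibreBC.topologicalKrullDim_eq_one (hp.2.2 (p' y)).1)).2 z1 with h | h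
  · have h3 := h z2 hz12
    apply hne1y
    rw [← hx1, ← hx2, ← hz1, ← hz2, h3]
  · have h3 := h z0 hz01
    apply hne01
    rw [← hx1, ← hx0, ← hz1, ← hz0, h3]

/-- Two opens, one on which the family is nodal and one on which it is smooth of relative dimension one. -/
theorem isNodalFamily_of_sm (b : X ⟶ X') (p' : X' ⟶ S) (hp : Curv2.IsNodalFamily (b ≫ p')) (y : X')
    (hy : IsClosed ({y} : Set X')) (hb : BlowUp.IsBlowUp b (pt y hy)) (h : NodalPoint.Sm p' y) :
    Curv2.IsNodalFamily p' := by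
  obtain ⟨V, hV, hsm⟩ := h
  let U := Ega2.BlowBasic.offSupport (pt y hy)
  have hU : Curv2.IsNodalFamily (U.ι ≫ p') := isNodalFamily_off b p' hp y hy hb
  have hVn : Curv2.IsNodalFamily (V.ι ≫ p') := NodalExist.isNodalFamily_of_smooth (V.ι ≫ p')
  let W : ULift.{u} Bool → X'.Opens := fun i => if i.down then U else V
  refine S1593.result p' (ULift.{u} Bool) (fun i => (W i).toScheme) (fun i => (W i).ι) ?_ ?_
  · intro x
    by_cases hx : x = y
    · refine ⟨⟨false⟩, ?_⟩
      have : x ∈ V := hx ▸ hV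
      exact ⟨⟨x, this⟩, rfl⟩
    · refine ⟨⟨true⟩, ?_⟩
      have : x ∈ U := by
        rw [Ega2.BlowBasic.mem_offSupport, mem_support_pt]; exact hx
      exact ⟨⟨x, this⟩, rfl⟩
  · rintro ⟨i⟩
    cases i
    · exact hVn
    · exact hU

end Groth.Agent.Models.H62.ContrMain
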