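import Groth.Prelude.Def_CurvBase
import Groth.Prelude.Def_BlowUp2
import Groth.Agent.Models.H62.ContrAlg
import Groth.Agent.Divis.EffCartier
import Groth.Agent.Divis.CartierStalk
import Groth.Agent.Dix.PointIdeal
import Groth.Agent.CycB.FiberStalk
import Groth.Agent.Ega2.BlowBasic
import Mathlib.AlgebraicGeometry.Morphisms.Proper

/-!
# The strict transform of the closed fibre in the blow-up of a regular point

Let `b : X ⟶ X'` be the blow-up of a closed point `y` with two-dimensional regular local ring and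
`p' : X' ⟶ S` a morphism such that the maximal ideal of `O_{S, p' y}` is generated by a nonzerodivisor `ϖ`.
-/

set_option autoImplicit false
universe u

open CategoryTheory CategoryTheory.Limits AlgebraicGeometry IsLocalRing
open Groth.Agent.Divis.CartierBasic Groth.Agent.Dix.PointIdeal Groth.Agent.CycB.FiberStalk

namespace Groth.Agent.Models.H62.ContrPoint

variable {X X' S : Scheme.{u}}

/-- The ideal generated upstairs by the maximal ideal of the centre of the blow-up. -/
theorem exists_span (b : X ⟶ X') (x : X) (hy : IsClosed ({b x} : Set X'))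
    (hb : BlowUp.IsBlowUp b (pt (b x) hy)) :
    ∃ t ∈ nonZeroDivisors (X.presheaf.stalk x), t ∈ maximalIdeal (X.presheaf.stalk x) ∧
      (maximalIdeal (X'.presheaf.stalk (b x))).map (b.stalkMap x).hom = Ideal.span {t} := by
  obtain ⟨t, ht, h⟩ := exists_stalkIdeal_eq_span hb.1 x
  rw [Divis.CartierStalk.stalkIdeal_comap, stalkIdeal_pt] at h
  refine ⟨t, ht, ?_, h⟩
  have h1 : (maximalIdeal (X'.presheaf.stalk (b x))).map (b.stalkMap x).hom ≤
      maximalIdeal (X.presheaf.stalk x) :=
    ((IsLocalRing.local_hom_TFAE (b.stalkMap x).hom).out 0 2 rfl rfl).mp inferInstance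
  exact h1 (h ▸ Ideal.mem_span_singleton_self t)

/-- The ideal of the fibre upstairs. -/
theorem fibIdeal_comp (b : X ⟶ X') (p' : X' ⟶ S) (x : X) (ϖ : S.presheaf.stalk (p' (b x)))
    (hϖ : maximalIdeal (S.presheaf.stalk (p' (b x))) = Ideal.span {ϖ}) :
    fibIdeal (b ≫ p') x = Ideal.span {(b.stalkMap x).hom ((p'.stalkMap (b x)).hom ϖ)} := by
  have h1 : fibIdeal (b ≫ p') x =
      ((maximalIdeal (S.presheaf.stalk (p' (b x)))).map (p'.stalkMap (b x)).hom).map (b.stalkMap x).hom := by
    rw [Ideal.map_map]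
    unfold fibIdeal
    rw [Scheme.Hom.stalkMap_comp]
    rfl
  rw [h1, hϖ, Ideal.map_span, Ideal.map_span, Set.image_singleton, Set.image_singleton]

theorem fibIdeal_eq (p' : X' ⟶ S) (y : X') (ϖ : S.presheaf.stalk (p' y))
    (hϖ : maximalIdeal (S.presheaf.stalk (p' y)) = Ideal.span {ϖ}) :
    fibIdeal p' y = Ideal.span {(p'.stalkMap y).hom ϖ} := by
  unfold fibIdeal
  rw [hϖ, Ideal.map_span, Set.image_singleton]

/-- The image of `ϖ` upstairs is a nonzerodivisor. -/
theorem map_mem_nonZeroDivisors (b : X ⟶ X') (p' : X' ⟶ S) [Flat (b ≫ p')] (x : X)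
    (ϖ : S.presheaf.stalk (p' (b x))) (hϖ0 : ϖ ∈ nonZeroDivisors _) :
    (b.stalkMap x).hom ((p'.stalkMap (b x)).hom ϖ) ∈ nonZeroDivisors (X.presheaf.stalk x) := by
  have h1 : ((b ≫ p').stalkMap x).hom.Flat := Flat.stalkMap _ x
  have h2 := Divis.EffCartier.map_mem_nonZeroDivisors_of_flat _ h1 (a := ϖ) hϖ0
  rw [Scheme.Hom.stalkMap_comp] at h2
  exact h2

/-- If the fibre is reduced then `ϖ` does not lie in the square of the maximal ideal at the centre. -/
theorem notMem_sq (b : X ⟶ X') (p' : X' ⟶ S) [Flat (b ≫ p')] (x : X) (hy : IsClosed ({b x} : Set X'))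
    (hb : BlowUp.IsBlowUp b (pt (b x) hy)) (ϖ : S.presheaf.stalk (p' (b x)))
    (hϖ : maximalIdeal (S.presheaf.stalk (p' (b x))) = Ideal.span {ϖ}) (hϖ0 : ϖ ∈ nonZeroDivisors _)
    (hred : _root_.IsReduced (X.presheaf.stalk x ⧸ fibIdeal (b ≫ p') x)) :
    (p'.stalkMap (b x)).hom ϖ ∉ maximalIdeal (X'.presheaf.stalk (b x)) ^ 2 := by
  intro hmem
  obtain ⟨t, ht, htm, hmap⟩ := exists_span b x hy hb
  rw [fibIdeal_comp b p' x ϖ hϖ] at hred
  have h0 := ContrAlg.map_eq_zero_of_mem_sq _ t ht htm hmap _ hmem hred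
  have h1 := map_mem_nonZeroDivisors b p' x ϖ hϖ0
  rw [h0] at h1
  exact zero_notMem_nonZeroDivisors h1

theorem fibIdeal_le_of_eq (f : X ⟶ S) (x : X) (q : Spec (X.presheaf.stalk x))
    (h : f (X.fromSpecStalk x q) = f x) : fibIdeal f x ≤ q.asIdeal := by
  have h1 : Spec.map (f.stalkMap x) q = closedPoint (S.presheaf.stalk (f x)) := by
    apply (S.fromSpecStalk (f x)).isEmbedding.injective
    rw [← Scheme.Hom.comp_apply, Scheme.SpecMap_stalkMap_fromSpecStalk, Scheme.Hom.comp_apply, h]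
    exact S.fromSpecStalk_closedPoint.symm
  rw [Ideal.map_le_iff_le_comap]
  have h2 := congrArg PrimeSpectrum.asIdeal h1
  exact h2.ge

/-- A point of the blow-up over the centre which is a specialization of a point of the closed fibre not lying over
the centre is a singular point of the closed fibre. -/
theorem not_isDomain (b : X ⟶ X') (p' : X' ⟶ S) [Flat (b ≫ p')] (x ξ : X) (hy : IsClosed ({b x} : Set X'))
    (hb : BlowUp.IsBlowUp b (pt (b x) hy)) (ϖ : S.presheaf.stalk (p' (b x)))
    (hϖ : maximalIdeal (S.presheaf.stalk (p' (b x))) = Ideal.span {ϖ}) (hϖ0 : ϖ ∈ nonZeroDivisors _)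
    (hξ : ξ ⤳ x) (hξ1 : p' (b ξ) = p' (b x)) (hξ2 : b ξ ≠ b x) :
    ¬ IsDomain (X.presheaf.stalk x ⧸ fibIdeal (b ≫ p') x) := by
  obtain ⟨t, ht, htm, hmap⟩ := exists_span b x hy hb
  set φ := (b.stalkMap x).hom with hφ
  set π := (p'.stalkMap (b x)).hom ϖ with hπ
  have hnzd : φ π ∈ nonZeroDivisors (X.presheaf.stalk x) := map_mem_nonZeroDivisors b p' x ϖ hϖ0
  -- the prime of the generization
  obtain ⟨q, hq⟩ : ξ ∈ Set.range (X.fromSpecStalk x) := by
    rw [Scheme.range_fromSpecStalk]; exact hξ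
  -- `π` lies in the maximal ideal
  have hπm : π ∈ maximalIdeal (X'.presheaf.stalk (b x)) := by
    have h1 := fibIdeal_le p' (b x)
    rw [fibIdeal_eq p' (b x) ϖ hϖ] at h1
    exact h1 (Ideal.mem_span_singleton_self _)
  obtain ⟨u, hu⟩ : ∃ u, φ π = t * u := by
    have : φ π ∈ Ideal.span {t} := hmap ▸ Ideal.mem_map_of_mem _ hπm
    exact Ideal.mem_span_singleton.1 this
  -- `φ π` lies in `q`
  have hπq : φ π ∈ q.asIdeal := by
    have h1 : fibIdeal (b ≫ p') x ≤ q.asIdeal := by
      apply fibIdeal_le_of_eq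
      rw [hq]
      exact hξ1
    rw [fibIdeal_comp b p' x ϖ hϖ] at h1
    exact h1 (Ideal.mem_span_singleton_self _)
  -- `t` does not
  have htq : t ∉ q.asIdeal := by
    intro htq
    have h1 : X.fromSpecStalk x q ∈ ((pt (b x) hy).comap b).support := by
      refine (fromSpecStalk_mem_support_iff _ x q).2 ?_
      rw [Divis.CartierStalk.stalkIdeal_comap, stalkIdeal_pt]
      rw [hmap, Ideal.span_singleton_le_iff_mem]
      exact htq
    rw [hq] at h1
    have h2 : b ξ ∈ (pt (b x) hy).support := by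
      rw [Scheme.IdealSheafData.support_comap] at h1
      exact h1
    rw [mem_support_pt] at h2
    exact hξ2 h2
  have hum : u ∈ maximalIdeal (X.presheaf.stalk x) := by
    rw [hu] at hπq
    have h1 : u ∈ q.asIdeal := (q.2.mem_or_mem hπq).resolve_left htq
    exact le_maximalIdeal q.2.ne_top h1
  rw [fibIdeal_comp b p' x ϖ hϖ]
  have hne : t * u ≠ 0 := by
    rw [← hu]
    exact nonZeroDivisors.ne_zero hnzd
  have key := ContrAlg.not_isDomain_quotient t u htm hum hne
  rw [← hu] at key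
  exact key

end Groth.Agent.Models.H62.ContrPoint
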