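import Groth.Agent.Models.H62.ContrPoint
import Groth.Agent.CurvesB.NodalPoint
import Groth.Agent.VarietyA.SmoothReg
import Groth.Agent.VarietyB.ResMap
import Mathlib.RingTheory.Etale.Field

/-!
# Smoothness of the contraction of an exceptional curve in a nodal family
-/

set_option autoImplicit false
universe u

open CategoryTheory CategoryTheory.Limits AlgebraicGeometry IsLocalRing
open Groth.Agent.Divis.CartierBasic Groth.Agent.Dix.PointIdeal Groth.Agent.CycB.FiberStalk
open Groth.Agent.CurvesB

namespace Groth.Agent.Models.H62.ContrSmooth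

variable {X X' S : Scheme.{u}}

/-- Points off the centre lift to the blow-up. -/
theorem exists_lift (b : X ⟶ X') (y : X') (hy : IsClosed ({y} : Set X'))
    (hb : BlowUp.IsBlowUp b (pt y hy)) (z : X') (hz : z ≠ y) : ∃ x : X, b x = z := by
  obtain ⟨r, hr, h⟩ := Ega2.BlowBasic.exists_isIso_offSupport hb
  have hz' : z ∈ Ega2.BlowBasic.offSupport (pt y hy) := by
    rw [Ega2.BlowBasic.mem_offSupport, mem_support_pt]; exact hz
  refine ⟨(Ega2.BlowBasic.offSupport ((pt y hy).comap b)).ι (inv r ⟨z, hz'⟩), ?_⟩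
  rw [← Scheme.Hom.comp_apply, ← h, ← Scheme.Hom.comp_apply, IsIso.inv_hom_id_assoc]
  rfl

/-- Closed morphisms lift specializations. -/
theorem exists_specializes (b : X ⟶ X') [IsProper b] (ξ : X) (y : X') (h : b ξ ⤳ y) :
    ∃ x, ξ ⤳ x ∧ b x = y := by
  have h1 : IsClosedMap b := b.isClosedMap
  obtain ⟨x, hx, hxy⟩ := h1.specializingMap h
  exact ⟨x, hx, hxy⟩

theorem apply_eq_of_fibIdeal_le (f : X ⟶ S) (x : X) (q : Spec (X.presheaf.stalk x))
    (h : fibIdeal f x ≤ q.asIdeal) : f (X.fromSpecStalk x q) = f x := by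
  have h1 : Spec.map (f.stalkMap x) q = closedPoint (S.presheaf.stalk (f x)) := by
    apply PrimeSpectrum.ext
    apply le_antisymm
    · exact le_maximalIdeal (Spec.map (f.stalkMap x) q).2.ne_top
    · exact Ideal.map_le_iff_le_comap.1 h
  rw [← Scheme.Hom.comp_apply, ← Scheme.SpecMap_stalkMap_fromSpecStalk, Scheme.Hom.comp_apply, h1]
  exact S.fromSpecStalk_closedPoint

/-- There is a singular point of the closed fibre upstairs over the centre. -/
theorem exists_singular (b : X ⟶ X') [IsProper b] (p' : X' ⟶ S) [Flat (b ≫ p')] (y : X')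
    (hy : IsClosed ({y} : Set X')) (hb : BlowUp.IsBlowUp b (pt y hy))
    (hreg : IsRegularLocalRing (X'.presheaf.stalk y)) (hdim : ringKrullDim (X'.presheaf.stalk y) = 2)
    (ϖ : S.presheaf.stalk (p' y)) (hϖ : maximalIdeal (S.presheaf.stalk (p' y)) = Ideal.span {ϖ})
    (hϖ0 : ϖ ∈ nonZeroDivisors _) (hsq : (p'.stalkMap y).hom ϖ ∉ maximalIdeal (X'.presheaf.stalk y) ^ 2) :
    ∃ (ξ x : X), ξ ⤳ x ∧ b x = y ∧ b ξ ≠ y ∧ ¬ IsDomain (X.presheaf.stalk x ⧸ fibIdeal (b ≫ p') x) := by
  have hπm : (p'.stalkMap y).hom ϖ ∈ maximalIdeal (X'.presheaf.stalk y) := by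
    have h1 := fibIdeal_le p' y
    rw [ContrPoint.fibIdeal_eq p' y ϖ hϖ] at h1
    exact h1 (Ideal.mem_span_singleton_self _)
  obtain ⟨hprime, hne⟩ := ContrAlg.isPrime_span hdim _ hπm hsq
  let q : Spec (X'.presheaf.stalk y) := ⟨Ideal.span {(p'.stalkMap y).hom ϖ}, hprime⟩
  let ξ' : X' := X'.fromSpecStalk y q
  have h1 : ξ' ⤳ y := by
    have := Set.mem_range_self (f := X'.fromSpecStalk y) q
    rwa [Scheme.range_fromSpecStalk] at this
  have h2 : ξ' ≠ y := by
    intro h
    have h3 : X'.fromSpecStalk y q = X'.fromSpecStalk y (closedPoint _) := by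
      rw [X'.fromSpecStalk_closedPoint]; exact h
    have h4 := (X'.fromSpecStalk y).isEmbedding.injective h3
    exact hne (congrArg PrimeSpectrum.asIdeal h4)
  have h3 : p' ξ' = p' y := apply_eq_of_fibIdeal_le p' y q
    (by rw [ContrPoint.fibIdeal_eq p' y ϖ hϖ])
  obtain ⟨ξ, hξ⟩ := exists_lift b y hy hb ξ' h2
  obtain ⟨x, hx, hxy⟩ := exists_specializes b ξ y (hξ ▸ h1)
  subst hxy
  refine ⟨ξ, x, hx, rfl, ?_, ?_⟩
  · rw [hξ]; exact h2
  · exact ContrPoint.not_isDomain b p' x ξ hy hb ϖ hϖ hϖ0 hx (by rw [hξ]; exact h3) (by rw [hξ]; exact h2)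

/-- The local ring of the fibre of a nodal family is reduced. -/
theorem isReduced_quotient (f : X ⟶ S) (hf : Curv2.IsNodalFamily f) (x : X) :
    _root_.IsReduced (X.presheaf.stalk x ⧸ fibIdeal f x) := by
  obtain ⟨hflat, hlfp, h⟩ := hf
  obtain ⟨hdim, hawn⟩ := h (f x)
  have hlfp' : LocallyOfFiniteType (f.fiberToSpecResidueField (f x)) :=
    MorphismProperty.pullback_snd _ _ inferInstance
  have hgr : GeometricallyReduced (f.fiberToSpecResidueField (f x)) :=
    (@S1589.result (S.residueField (f x)) _ (f.fiber (f x)) ⟨f.fiberToSpecResidueField (f x)⟩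
      (inferInstanceAs (LocallyOfFiniteType (f.fiberToSpecResidueField (f x)))) hdim hawn).2
  have hN : IsLocallyNoetherian (Spec (S.residueField (f x))) := inferInstance
  have hR : IsReduced (Spec (S.residueField (f x))) := inferInstance
  have hfl : Flat (f.fiberToSpecResidueField (f x)) := inferInstance
  have hred : IsReduced (f.fiber (f x)) :=
    GeometricallyReduced.isReduced_of_flat_of_isLocallyNoetherian (f.fiberToSpecResidueField (f x))
  have h1 : _root_.IsReduced ((f.fiber (f x)).presheaf.stalk (f.asFiber x)) := inferInstance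
  let e := stalkEquiv f (f x) (f.asFiber x)
  have h2 : _root_.IsReduced (X.presheaf.stalk (f.fiberι (f x) (f.asFiber x)) ⧸
      fibIdeal f (f.fiberι (f x) (f.asFiber x))) := isReduced_of_injective e e.injective
  have key : ∀ (x' : X) (_ : x' = x), _root_.IsReduced (X.presheaf.stalk x' ⧸ fibIdeal f x') →
      _root_.IsReduced (X.presheaf.stalk x ⧸ fibIdeal f x) := by
    rintro _ rfl h; exact h
  exact key _ (f.fiberι_asFiber x) h2

/-- A point of a nodal family at which the local ring of the fibre is not a domain is a node. -/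
theorem isN_of_not_isDomain (f : X ⟶ S) (hf : Curv2.IsNodalFamily f) (x : X)
    (h : ¬ IsDomain (X.presheaf.stalk x ⧸ fibIdeal f x)) : NodalPoint.IsN f (f x) (f.asFiber x) := by
  rcases NodalPoint.pt_of_isNodalFamily f hf x with h1 | h1
  · exfalso
    apply h
    obtain ⟨hflat, hlfp, -⟩ := hf
    have hlfp' : LocallyOfFinitePresentation (f.fiberToSpecResidueField (f x)) :=
      MorphismProperty.pullback_snd _ _ inferInstance
    have h2 := NodalPoint.mem_smoothLocus_of_sm f x h1
    have h3 := ((S2156.result f x).1 h2).2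
    have h4 : IsRegularLocalRing ((f.fiber (f x)).presheaf.stalk (f.asFiber x)) :=
      @VarietyA.RegSmoothSch.isRegularLocalRing_stalk_of_mem_smoothLocus (S.residueField (f x)) _
        (f.fiber (f x)) (f.fiberToSpecResidueField (f x)) hlfp' (f.asFiber x) h3
    have h5 := CalgA.RegBasic.isDomain ((f.fiber (f x)).presheaf.stalk (f.asFiber x))
    let e := stalkEquiv f (f x) (f.asFiber x)
    have h6 : IsDomain (X.presheaf.stalk (f.fiberι (f x) (f.asFiber x)) ⧸
      fibIdeal f (f.fiberι (f x) (f.asFiber x))) := e.toMulEquiv.isDomain _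
    have key : ∀ (x' : X) (_ : x' = x), IsDomain (X.presheaf.stalk x' ⧸ fibIdeal f x') →
        IsDomain (X.presheaf.stalk x ⧸ fibIdeal f x) := by
      rintro _ rfl h; exact h
    exact key _ (f.fiberι_asFiber x) h6
  · exact h1

/-- Separability of the residue field at the image of a node. -/
theorem isSeparable_of_isN (b : X ⟶ X') (p' : X' ⟶ S) (s : S) [LocallyOfFiniteType (b ≫ p')]
    (z : (b ≫ p').fiber s) (hz : NodalPoint.IsN (b ≫ p') s z) :
    @Algebra.IsSeparable (S.residueField s) ((p'.fiber s).residueField (NodalEtale.fiberMap p' b s z)) _ _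
      (@Curv2.resAlgebra (S.residueField s) _ (p'.fiber s) ⟨p'.fiberToSpecResidueField s⟩
        (NodalEtale.fiberMap p' b s z)) := by
  have hlft : LocallyOfFiniteType ((b ≫ p').fiberToSpecResidueField s) :=
    MorphismProperty.pullback_snd _ _ inferInstance
  let k := S.residueField s
  let g := NodalEtale.fiberMap p' b s
  let i1 : ((b ≫ p').fiber s).Over (Spec (CommRingCat.of (S.residueField s))) :=
    ⟨(b ≫ p').fiberToSpecResidueField s⟩
  let i2 : (p'.fiber s).Over (Spec (CommRingCat.of (S.residueField s))) :=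
    ⟨p'.fiberToSpecResidueField s⟩
  have h1 := (@Node.isNode_iff_resFS (S.residueField s) _ ((b ≫ p').fiber s) i1 hlft z).1 hz
  let _ := Curv2.resAlgebra (S.residueField s) ((b ≫ p').fiber s) z
  let _ := Curv2.resAlgebra (S.residueField s) (p'.fiber s) (g z)
  have h2 : Algebra.IsSeparable (S.residueField s) (((b ≫ p').fiber s).residueField z) := h1.1.2
  let _ : Algebra ((p'.fiber s).residueField (g z)) (((b ≫ p').fiber s).residueField z) :=
    (g.residueFieldMap z).hom.toAlgebra
  have hg : g ≫ (p'.fiber s ↘ Spec (CommRingCat.of (S.residueField s))) =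
      (b ≫ p').fiber s ↘ Spec (CommRingCat.of (S.residueField s)) := NodalEtale.fiberMap_snd p' b s
  have h3 : IsScalarTower (S.residueField s) ((p'.fiber s).residueField (g z))
      (((b ≫ p').fiber s).residueField z) :=
    IsScalarTower.of_algebraMap_eq' (VarietyB.ResMap.residueFieldMap_comp_resMap (S.residueField s) g hg z).symm
  exact Algebra.isSeparable_tower_bot_of_isSeparable (S.residueField s)
    ((p'.fiber s).residueField (g z)) (((b ≫ p').fiber s).residueField z)

end Groth.Agent.Models.H62.ContrSmooth
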